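import Cfsg.Agent.H797.TwoPsl.Odd

/-!
# The row of `PSL_2(q)` for S4897, `q` even, `q ≥ 16`
-/

set_option autoImplicit false
set_option linter.unusedSectionVars false

namespace Cfsg.Agent.H797.TwoPsl

open scoped MatrixGroups
open Cfsg Cfsg.Agent.Characters.Core Cfsg.Agent.ClassicalGeometry.PSLTorus Cfsg.Agent.H504.Zeros
open Cfsg.Agent.H681.ZerosPSL2 Cfsg.Agent.H504.TwoZ

variable {F : Type} [Field F] [Fintype F]

theorem card_deg_even [CharP F 2] (D : ℕ) :
    Nat.card {χ : IrrCharacter (SL(2, F)) // (χ : SL(2, F) → ℂ) 1 = D} ≤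
      Nat.card (Deg (Matrix.ProjectiveSpecialLinearGroup (Fin 2) F) D) := by
  have := finite_irr (G := Matrix.ProjectiveSpecialLinearGroup (Fin 2) F)
  have h2 : (2 : F) = 0 := by exact_mod_cast CharP.cast_eq_zero F 2
  have key : ∀ χ : {χ : IrrCharacter (SL(2, F)) // (χ : SL(2, F) → ℂ) 1 = D},
      ∃ χ' : IrrCharacter (Matrix.ProjectiveSpecialLinearGroup (Fin 2) F),
        ∀ g, (χ.1 : SL(2, F) → ℂ) g = (χ' : Matrix.ProjectiveSpecialLinearGroup (Fin 2) F → ℂ) (pr F g) :=
    fun χ => deflate χ.1.2 (by rw [neg_one_eq_one h2])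
  choose f hf using key
  refine Nat.card_le_card_of_injective (fun χ => (⟨f χ, degree_of (hf χ) χ.2⟩ : Deg _ D)) ?_
  intro a b hab
  have h1 : f a = f b := congrArg Subtype.val hab
  apply Subtype.ext
  apply Subtype.ext
  funext g
  rw [hf a g, hf b g, h1]

theorem two_pow_gt (f : ℕ) (hf : 4 ≤ f) : 2 * f + 2 < 2 ^ f := by
  induction f, hf using Nat.le_induction with
  | base => norm_num
  | succ n hn ih => rw [pow_succ]; omega

theorem row_even (he : Even (Fintype.card F)) (h16 : 9 ≤ Fintype.card F) :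
    Two (Matrix.ProjectiveSpecialLinearGroup (Fin 2) F) ∧
      Row2 (Matrix.ProjectiveSpecialLinearGroup (Fin 2) F) := by
  obtain ⟨p, f, hp, hf, hpf⟩ := exists_pow F
  have hp2 : p = 2 := by
    rw [hpf, Nat.even_pow] at he
    exact (hp.eq_two_or_odd').resolve_right fun h => (Nat.not_even_iff_odd.2 h) he.1
  subst hp2
  have : Fact (Nat.Prime 2) := ⟨Nat.prime_two⟩
  have hch : CharP F 2 := charP_of_card_eq_prime_pow hpf
  have h2 : (2 : F) = 0 := by exact_mod_cast CharP.cast_eq_zero F 2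
  have hf4 : 4 ≤ f := by
    by_contra h
    push Not at h
    have : 2 ^ f ≤ 2 ^ 3 := Nat.pow_le_pow_right (by norm_num) (by omega)
    omega
  have hgt := two_pow_gt f hf4
  rw [← hpf] at hgt
  have hg1 : Nat.gcd 2 (Fintype.card F - 1) = 1 := by
    rw [← Nat.coprime_iff_gcd_eq_one, Nat.coprime_two_left, Nat.odd_iff]
    rw [Nat.even_iff] at he
    omega
  have hA := mulAut_le (F := F) hf hpf
  rw [hg1, one_mul] at hA
  have hG := Cfsg.Agent.ClassicalGeometry.PSL2Basic.card_PSL2_even (F := F) he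
  obtain ⟨-, hcnt⟩ := Cfsg.Agent.S2300.result (F := F)
  obtain ⟨-, -, hadd, hsub⟩ := hcnt (by omega)
  obtain ⟨x, hx⟩ := ord_nonsplit F
  rw [hg1, Nat.div_one] at hx
  obtain ⟨y, hy⟩ := ord_split_even h2
  obtain ⟨m, hm⟩ := he
  have hm2 : Fintype.card F = 2 * m := by omega
  have hcadd : Nat.card (Deg (Matrix.ProjectiveSpecialLinearGroup (Fin 2) F) (Fintype.card F + 1)) ≥
      (Fintype.card F - 2) / 2 := by
    rw [← hadd]
    have := card_deg_even (F := F) (Fintype.card F + 1)
    push_cast at this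
    exact this
  have hcsub : Nat.card (Deg (Matrix.ProjectiveSpecialLinearGroup (Fin 2) F) (Fintype.card F - 1)) ≥
      Fintype.card F / 2 := by
    rw [← hsub]
    have := card_deg_even (F := F) (Fintype.card F - 1)
    rw [Nat.cast_sub (by omega)] at this
    push_cast at this
    exact this
  have hsq : Fintype.card F ^ 2 - 1 = (Fintype.card F - 1) * (Fintype.card F + 1) := by
    obtain ⟨r, hr⟩ : ∃ r, Fintype.card F = r + 1 := ⟨Fintype.card F - 1, by omega⟩
    rw [hr, Nat.sub_eq_iff_eq_add (Nat.one_le_pow _ _ (by omega)), Nat.add_sub_cancel]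
    ring
  have hcop : Nat.Coprime (Fintype.card F - 1) (Fintype.card F + 1) := by
    obtain ⟨r, hr⟩ : ∃ r, Fintype.card F = r + 1 := ⟨Fintype.card F - 1, by omega⟩
    rw [hr, Nat.add_sub_cancel, show r + 1 + 1 = r + 2 by ring, Nat.coprime_self_add_right,
      Nat.coprime_two_right, Nat.odd_iff]
    omega
  have hcop1 : Nat.Coprime (Fintype.card F - 1) (Fintype.card F) := by
    obtain ⟨r, hr⟩ : ∃ r, Fintype.card F = r + 1 := ⟨Fintype.card F - 1, by omega⟩
    rw [hr, Nat.add_sub_cancel, Nat.coprime_self_add_right]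
    exact Nat.coprime_one_right _
  have hcop2 : Nat.Coprime (Fintype.card F + 1) (Fintype.card F) := by
    rw [Nat.coprime_self_add_left]
    exact Nat.coprime_one_left _
  have h3 : ¬ 3 ∣ Fintype.card F := by
    rw [hpf]
    intro h
    have := (Nat.prime_dvd_prime_iff_eq Nat.prime_three Nat.prime_two).1
      (Nat.prime_three.dvd_of_dvd_pow h)
    omega
  have h3' : 3 ∣ Fintype.card F - 1 ∨ 3 ∣ Fintype.card F + 1 := by
    have hq9 : 9 ≤ Fintype.card F := h16
    clear * - h3 hq9
    generalize Fintype.card F = q at *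
    have h4 : q % 3 ≠ 0 := fun h => h3 (Nat.dvd_of_mod_eq_zero h)
    have h5 : q % 3 = 1 ∨ q % 3 = 2 := by omega
    rcases h5 with h5 | h5
    · left
      exact Nat.dvd_of_mod_eq_zero (by omega)
    · right
      exact Nat.dvd_of_mod_eq_zero (by omega)
  have h16' : 16 ≤ Fintype.card F := by
    rw [hpf]
    calc 16 = 2 ^ 4 := by norm_num
      _ ≤ 2 ^ f := Nat.pow_le_pow_right (by norm_num) hf4
  rcases h3' with ⟨k, hk⟩ | ⟨k, hk⟩
  · obtain ⟨ho, hc3⟩ := three_orders (D := Fintype.card F - 1) (a := 3) (b := k) (by norm_num) (by omega)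
      (by omega) (hy.trans hk) (by rw [hk])
    have hS : Nat.card (Matrix.ProjectiveSpecialLinearGroup (Fin 2) F) =
        (Fintype.card F - 1) * (Fintype.card F * (Fintype.card F + 1)) := by
      rw [hG, hsq]; ring
    have hc := hcop1.mul_right hcop
    exact ⟨row1_of_degree hS hc _ ho hc3 (by omega), row2_of_degree hS hc _ ho hc3 hA (by omega)⟩
  · obtain ⟨ho, hc3⟩ := three_orders (D := Fintype.card F + 1) (a := 3) (b := k) (by norm_num) (by omega)
      (by omega) (hx.trans hk) (by rw [hk])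
    have hS : Nat.card (Matrix.ProjectiveSpecialLinearGroup (Fin 2) F) =
        (Fintype.card F + 1) * (Fintype.card F * (Fintype.card F - 1)) := by
      rw [hG, hsq]; ring
    have hc := hcop2.mul_right hcop.symm
    exact ⟨row1_of_degree hS hc _ ho hc3 (by omega), row2_of_degree hS hc _ ho hc3 hA (by omega)⟩

end Cfsg.Agent.H797.TwoPsl
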