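import Cfsg.Agent.H797.TwoPsl.Excep
import Cfsg.Agent.H797.TwoPsl.Even
import Cfsg.Agent.CharactersDeep.PrimeIndex

/-!
# The row of `PSL_2(8)` for S4897
-/

set_option autoImplicit false
set_option linter.unusedSectionVars false

namespace Cfsg.Agent.H797.TwoPsl

open scoped MatrixGroups
open Cfsg Cfsg.Agent.Characters.Core Cfsg.Agent.ClassicalGeometry.PSLTorus Cfsg.Agent.H504.Zeros
open Cfsg.Agent.H681.ZerosPSL2 Cfsg.Agent.H504.TwoZ Cfsg.Agent.H504.ZeroTI
open Cfsg.Agent.ClassicalGeometry.AutPSL.Auto (cj fld lift coe_cj coe_fld_apply lift_pr)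

section Gen

universe u v

/-- irreducible characters separate classes -/
theorem exists_sep {S : Type u} [Group S] [Finite S] {x y : S} (h : ¬ IsConj x y) :
    ∃ χ : IrrCharacter S, (χ : S → ℂ) x ≠ (χ : S → ℂ) y := by
  classical
  have := finite_irr (G := S)
  have := Fintype.ofFinite (IrrCharacter S)
  have := Fintype.ofFinite S
  by_contra hcon
  push Not at hcon
  let f : S → ℂ := fun z => if IsConj x z then 1 else 0
  have hf : IsClassFunction S f := by
    intro g k
    have h1 : IsConj g (k * g * k⁻¹) := isConj_iff.2 ⟨k, rfl⟩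
    show (if IsConj x (k * g * k⁻¹) then (1 : ℂ) else 0) = if IsConj x g then 1 else 0
    by_cases h2 : IsConj x g
    · rw [if_pos (h2.trans h1), if_pos h2]
    · rw [if_neg fun h3 => h2 (h3.trans h1.symm), if_neg h2]
  have h1 := classFunction_eq_sum hf
  have h2 : f x = f y := by
    rw [h1, Finset.sum_apply, Finset.sum_apply]
    refine Finset.sum_congr rfl fun χ _ => ?_
    rw [Pi.smul_apply, Pi.smul_apply, hcon]
  have h3 : f x = 1 := if_pos (IsConj.refl x)
  have h4 : f y = 0 := if_neg h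
  rw [h3, h4] at h2
  exact one_ne_zero h2

variable {G : Type u} [Group G] {S : Type v} [Group S]

/-- a character over a non-invariant character of a normal subgroup of prime index vanishes outside -/
theorem Over.vanish [Finite G] {N : Subgroup G} [N.Normal] {e : N ≃* S} {p : ℕ} (hp : p.Prime)
    (hN : N.index = p) {χ : IrrCharacter G} {θ : IrrCharacter S} (h : Over N e χ θ) {g₀ : G}
    (hg : (θ : S → ℂ) ∘ (autS N e g₀) ≠ (θ : S → ℂ)) {g : G} (hgN : g ∉ N) : (χ : G → ℂ) g = 0 := by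
  classical
  let _ := Fintype.ofFinite N
  let _ := Fintype.ofFinite G
  rcases Cfsg.Agent.CharactersDeep.PrimeIndex.norm_restrict_prime_index N hp hN χ.2 with h1 | h1
  · exfalso
    have h2 : IsCharacter N (fun k : N => (χ : G → ℂ) k) :=
      Cfsg.Agent.Characters.Clifford.isCharacter_restrict N (isIrr_isCharacter χ.2)
    have h3 := isIrr_of_classInner_self h2 h1
    have h4 : (fun k : N => (χ : G → ℂ) k) = (θ : S → ℂ) ∘ e := by
      by_contra hne
      exact h (classInner_irr_ne h3 (isIrr_comp_equiv N e θ) hne)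
    apply hg
    funext x
    have h5 := congrFun h4 (MulAut.conjNormal g₀ (e.symm x))
    have h6 := congrFun h4 (e.symm x)
    simp only [Function.comp_apply, MulEquiv.apply_symm_apply] at h5 h6
    rw [Function.comp_apply, autS_apply, ← h5, ← h6, MulAut.conjNormal_apply]
    exact isIrr_isClassFunction χ.2 _ _
  · have h2 := classInner_irr_self χ.2
    rw [classInner_def] at h1 h2
    have hn : ∀ z : ℂ, z * (starRingEnd ℂ) z = ((‖z‖ ^ 2 : ℝ) : ℂ) := by
      intro z
      rw [Complex.mul_conj, Complex.normSq_eq_norm_sq]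
    simp only [hn] at h1 h2
    have hG : (Nat.card G : ℂ) ≠ 0 := card_ne_zero_complex
    have hK : (Nat.card N : ℂ) ≠ 0 := card_ne_zero_complex
    have h3 : (∑ g : G, ((‖(χ : G → ℂ) g‖ ^ 2 : ℝ) : ℂ)) = Nat.card G := by
      have h2' := h2
      field_simp at h2'
      linear_combination h2'
    have h4 : (∑ k : N, ((‖(χ : G → ℂ) k‖ ^ 2 : ℝ) : ℂ)) = Nat.card G := by
      have h5 : (Nat.card G : ℂ) = Nat.card N * p := by
        rw [← hN, ← N.card_mul_index]
        push_cast
        rfl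
      rw [h5]
      have h1' := h1
      field_simp at h1'
      linear_combination h1'
    have h5 : (∑ g : G, ‖(χ : G → ℂ) g‖ ^ 2) = ∑ k : N, ‖(χ : G → ℂ) k‖ ^ 2 := by
      have h6 : ((∑ g : G, ‖(χ : G → ℂ) g‖ ^ 2 : ℝ) : ℂ) = ((∑ k : N, ‖(χ : G → ℂ) k‖ ^ 2 : ℝ) : ℂ) := by
        push_cast
        push_cast at h3 h4
        rw [h3, h4]
      exact_mod_cast h6
    have h6 : ∑ k : N, ‖(χ : G → ℂ) k‖ ^ 2 = ∑ g ∈ Finset.univ.filter (fun g : G => g ∈ N), ‖(χ : G → ℂ) g‖ ^ 2 := by
      refine (Finset.sum_subtype (Finset.univ.filter (fun g : G => g ∈ N)) (fun x => ?_)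
        (fun g => ‖(χ : G → ℂ) g‖ ^ 2)).symm
      simp
    rw [h6, ← Finset.sum_filter_add_sum_filter_not Finset.univ (fun g : G => g ∈ N)] at h5
    have h7 : ∑ g ∈ Finset.univ.filter (fun g : G => g ∉ N), ‖(χ : G → ℂ) g‖ ^ 2 = 0 := by linarith
    rw [Finset.sum_eq_zero_iff_of_nonneg fun _ _ => by positivity] at h7
    have h8 := h7 g (by simp [hgN])
    exact norm_eq_zero.1 (pow_eq_zero_iff (two_ne_zero) |>.1 h8)

theorem index_dvd [Finite S] [Finite G] (N : Subgroup G) [N.Normal] (e : N ≃* S)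
    (hcen : Subgroup.centralizer (N : Set G) = ⊥) {c : ℕ} (h : Nat.card (MulAut S) = c * Nat.card S) :
    N.index ∣ c := by
  have hinj : Function.Injective (MulAut.conjNormal (H := N) : G →* MulAut N) := by
    rw [injective_iff_map_eq_one]
    intro g hg
    rw [← Subgroup.mem_bot, ← hcen, Subgroup.mem_centralizer_iff]
    intro n hn
    have h1 := congrArg (fun φ : MulAut N => ((φ ⟨n, hn⟩ : N) : G)) hg
    have h2 : g * n * g⁻¹ = n := by simpa [MulAut.conjNormal_apply] using h1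
    calc n * g = g * n * g⁻¹ * g := by rw [h2]
      _ = g * n := by group
  have h1 : Nat.card G ∣ Nat.card (MulAut N) := Subgroup.card_dvd_of_injective _ hinj
  have h2 : Nat.card (MulAut N) = Nat.card (MulAut S) := Nat.card_congr (MulAut.congr e).toEquiv
  have h3 : Nat.card N * N.index = Nat.card G := N.card_mul_index
  have h4 : Nat.card N = Nat.card S := Nat.card_congr e.toEquiv
  have h5 : 0 < Nat.card S := Nat.card_pos
  rw [h2, h, ← h3, h4, mul_comm c] at h1
  exact Nat.dvd_of_mul_dvd_mul_left h5 h1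

/-- an element outside `N` does not induce an inner automorphism -/
theorem not_inner {N : Subgroup G} [N.Normal] {e : N ≃* S}
    (hcen : Subgroup.centralizer (N : Set G) = ⊥) {g : G} (hg : g ∉ N) (s : S) :
    autS N e g ≠ MulAut.conj s := by
  intro h
  apply hg
  have h1 : ((e.symm s : N) : G)⁻¹ * g ∈ Subgroup.centralizer (N : Set G) := by
    rw [Subgroup.mem_centralizer_iff]
    intro n hn
    have h2 := congrArg (fun φ : MulAut S => ((e.symm (φ (e ⟨n, hn⟩)) : N) : G)) h
    simp only [autS_apply, MulEquiv.symm_apply_apply, MulAut.conjNormal_apply, MulAut.conj_apply,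
      map_mul, map_inv] at h2
    have h3 : g * n * g⁻¹ = ((e.symm s : N) : G) * n * ((e.symm s : N) : G)⁻¹ := h2
    calc n * (((e.symm s : N) : G)⁻¹ * g)
        = ((e.symm s : N) : G)⁻¹ * (((e.symm s : N) : G) * n * ((e.symm s : N) : G)⁻¹) * g := by group
      _ = ((e.symm s : N) : G)⁻¹ * (g * n * g⁻¹) * g := by rw [h3]
      _ = ((e.symm s : N) : G)⁻¹ * g * n := by group
  rw [hcen, Subgroup.mem_bot, inv_mul_eq_one] at h1
  rw [← h1]
  exact (e.symm s).2

/-- three non-conjugate elements -/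
theorem nonConj_three [Finite G] {N : Subgroup G} [N.Normal] (hN : N.index = 3) {g y : G} (hg : g ∉ N)
    (hy : y ∈ N) : ∃ s : Finset G, NonConj s ∧ s.card = 3 ∧ ∀ z ∈ s, z = y ∨ z ∉ N := by
  classical
  have hgi : g⁻¹ ∉ N := fun h => hg (inv_mem_iff.1 h)
  have hcard : Nat.card (G ⧸ N) = 3 := hN
  have : Fact (Nat.Prime 3) := ⟨Nat.prime_three⟩
  have hcyc : IsCyclic (G ⧸ N) := isCyclic_of_prime_card hcard
  have hcomm : ∀ a b : G ⧸ N, a * b = b * a := fun a b => (IsCyclic.commGroup (α := G ⧸ N)).mul_comm a b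
  have hne : ∀ a b : G, IsConj a b → (a : G ⧸ N) = b := by
    intro a b hab
    obtain ⟨c, rfl⟩ := isConj_iff.1 hab
    rw [QuotientGroup.mk_mul, QuotientGroup.mk_mul, hcomm (c : G ⧸ N), QuotientGroup.mk_inv,
      mul_inv_cancel_right]
  have hgg : ¬ IsConj g g⁻¹ := by
    intro h
    have h1 := hne _ _ h
    rw [QuotientGroup.mk_inv] at h1
    have h2 : (g : G ⧸ N) ^ 2 = 1 := by
      rw [pow_two]
      nth_rw 2 [h1]
      exact mul_inv_cancel _
    have h3 : (g : G ⧸ N) ^ 3 = 1 := by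
      rw [← hcard]
      exact pow_card_eq_one'
    have h4 : (g : G ⧸ N) = 1 := by
      rw [pow_succ, h2, one_mul] at h3
      exact h3
    exact hg ((QuotientGroup.eq_one_iff g).1 h4)
  have hyg : ∀ z : G, z ∉ N → ¬ IsConj y z := by
    intro z hz h
    have h1 := hne _ _ h
    rw [(QuotientGroup.eq_one_iff y).2 hy] at h1
    exact hz ((QuotientGroup.eq_one_iff z).1 h1.symm)
  refine ⟨{y, g, g⁻¹}, ?_, ?_, ?_⟩
  · intro a ha b hb hab
    simp only [Finset.mem_insert, Finset.mem_singleton] at ha hb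
    rcases ha with rfl | rfl | rfl <;> rcases hb with rfl | rfl | rfl
    · rfl
    · exact absurd hab (hyg _ hg)
    · exact absurd hab (hyg _ hgi)
    · exact absurd hab.symm (hyg _ hg)
    · rfl
    · exact absurd hab hgg
    · exact absurd hab.symm (hyg _ hgi)
    · exact absurd hab.symm hgg
    · rfl
  · rw [Finset.card_insert_of_notMem, Finset.card_insert_of_notMem, Finset.card_singleton]
    · rw [Finset.mem_singleton]
      intro h
      apply hgg
      rw [← h]
    · rw [Finset.mem_insert, Finset.mem_singleton]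
      rintro (h | h)
      · exact hg (h ▸ hy)
      · exact hgi (h ▸ hy)
  · intro z hz
    simp only [Finset.mem_insert, Finset.mem_singleton] at hz
    rcases hz with rfl | rfl | rfl
    · exact Or.inl rfl
    · exact Or.inr hg
    · exact Or.inr hgi

end Gen

variable {F : Type} [Field F] [Fintype F]

/-- a non-inner automorphism of `PSL_2(8)` fixes no class of elements of order not `1`, `2`, `3` -/
theorem eight_noninner (h8 : Fintype.card F = 8)
    (φ : MulAut (Matrix.ProjectiveSpecialLinearGroup (Fin 2) F)) (hφ : ∀ s, φ ≠ MulAut.conj s)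
    (x : Matrix.ProjectiveSpecialLinearGroup (Fin 2) F) (hx : IsConj x (φ x)) : x ^ 2 = 1 ∨ x ^ 3 = 1 := by
  classical
  have : Fact (Nat.Prime 2) := ⟨Nat.prime_two⟩
  have hch : CharP F 2 := charP_of_card_eq_prime_pow (p := 2) (f := 3) (by rw [h8]; norm_num)
  have h2 : (2 : F) = 0 := by exact_mod_cast CharP.cast_eq_zero F 2
  have hpow8 : ∀ t : F, t ^ 8 = t := by
    intro t
    rw [← h8]
    exact FiniteField.pow_card t
  obtain ⟨A, σ, rfl⟩ := Cfsg.Agent.ClassicalGeometry.AutPSL.Main.surj_two 2 φ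
  obtain ⟨i, hi⟩ := ringEquiv_pow 2 σ
  have hstep : ∀ (t : F) (k : ℕ), t ^ (8 ^ k) = t := by
    intro t k
    induction k with
    | zero => rw [pow_zero, pow_one]
    | succ k ih => rw [pow_succ, pow_mul, ih, hpow8]
  obtain ⟨k, r, hr, hik⟩ : ∃ k r, r < 3 ∧ i = 3 * k + r := ⟨i / 3, i % 3, Nat.mod_lt _ (by norm_num), by omega⟩
  have hσ : ∀ t : F, σ t = t ^ (2 ^ r) := by
    intro t
    rw [hi, hik, pow_add, pow_mul, pow_mul, show (2 : ℕ) ^ 3 = 8 by norm_num, hstep]
  have hr0 : r ≠ 0 := by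
    rintro rfl
    have hσ1 : σ = 1 := by
      ext t
      rw [hσ, pow_zero, pow_one]
      rfl
    -- `A = λ A₁`
    have hsq : ∃ l : Fˣ, l ^ 2 = Matrix.GeneralLinearGroup.det A := by
      refine ⟨(Matrix.GeneralLinearGroup.det A) ^ 4, ?_⟩
      apply Units.ext
      rw [← pow_mul, Units.val_pow_eq_pow_val]
      exact hpow8 _
    obtain ⟨l, hl⟩ := hsq
    have hdet : (((l⁻¹ : Fˣ) : F) • (A : Matrix (Fin 2) (Fin 2) F)).det = 1 := by
      rw [Matrix.det_smul, Fintype.card_fin]
      have h1 : (A : Matrix (Fin 2) (Fin 2) F).det = ((l ^ 2 : Fˣ) : F) := by rw [hl]; rfl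
      rw [h1, ← Units.val_pow_eq_pow_val, ← Units.val_mul, ← mul_pow, inv_mul_cancel, one_pow,
        Units.val_one]
    obtain ⟨A₁, hA₁⟩ : ∃ B : SL(2, F), (B : Matrix (Fin 2) (Fin 2) F) =
      ((l⁻¹ : Fˣ) : F) • (A : Matrix (Fin 2) (Fin 2) F) := ⟨⟨_, hdet⟩, rfl⟩
    apply hφ (Cfsg.Agent.ClassicalGeometry.AutPSL.Root.pr A₁)
    rw [hσ1, map_one fld, mul_one, ← Cfsg.Agent.H183.OutPSL.lift_cj_toGL]
    congr 1
    have h4 : A = (Matrix.GeneralLinearGroup.scalar (Fin 2) l) * Matrix.SpecialLinearGroup.toGL A₁ := by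
      apply Units.ext
      show (A : Matrix (Fin 2) (Fin 2) F) = Matrix.scalar (Fin 2) (l : F) * (A₁ : Matrix (Fin 2) (Fin 2) F)
      rw [hA₁, Matrix.mul_smul, Matrix.scalar_apply, ← Matrix.smul_eq_diagonal_mul, smul_smul,
        ← Units.val_mul, inv_mul_cancel, Units.val_one, one_smul]
    conv_lhs => rw [h4]
    rw [map_mul, Cfsg.Agent.ClassicalGeometry.AutPSL.Main.cj_eq_one_of_scalar (r := (l : F)) rfl, one_mul]
  have hfix : ∀ t : F, σ t = t → t = 0 ∨ t = 1 := by
    intro t ht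
    rw [hσ] at ht
    have h3 : t ^ 2 = t := by
      have hr' : r = 1 ∨ r = 2 := by omega
      rcases hr' with rfl | rfl
      · simpa using ht
      · have h4 : t ^ 4 = t := by simpa using ht
        calc t ^ 2 = (t ^ 4) ^ 2 := by rw [h4]
          _ = t ^ 8 := by ring
          _ = t := hpow8 t
    have h4 : t * (t - 1) = 0 := by linear_combination h3
    rcases mul_eq_zero.1 h4 with h5 | h5
    · exact Or.inl h5
    · exact Or.inr (sub_eq_zero.1 h5)
  obtain ⟨B, rfl⟩ := pr_surjective F x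
  obtain ⟨c, hc⟩ := isConj_iff.1 hx
  obtain ⟨C, rfl⟩ := pr_surjective F c
  have h3 : pr F (C * B * C⁻¹) = pr F (cj A (fld σ B)) := by
    rw [map_mul, map_mul, map_inv]
    exact hc
  have h4 : C * B * C⁻¹ = cj A (fld σ B) := by
    rcases (pr_eq_iff _ _).1 h3 with h5 | h5
    · exact h5
    · rw [h5]
      have : (-(cj A (fld σ B)) : SL(2, F)) = -1 * cj A (fld σ B) := by rw [neg_one_mul]
      rw [this, neg_one_eq_one h2, one_mul]
  have h5 : (B : Matrix (Fin 2) (Fin 2) F).trace = σ (B : Matrix (Fin 2) (Fin 2) F).trace := by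
    have h6 := congrArg (fun M : SL(2, F) => (M : Matrix (Fin 2) (Fin 2) F).trace) h4
    simp only [coe_cj, Matrix.SpecialLinearGroup.coe_mul] at h6
    rw [Matrix.trace_mul_comm, ← Matrix.mul_assoc, ← Matrix.SpecialLinearGroup.coe_mul, inv_mul_cancel,
      Matrix.SpecialLinearGroup.coe_one, Matrix.one_mul] at h6
    refine h6.trans ?_
    rw [Matrix.trace_mul_comm, ← Matrix.mul_assoc, ← Units.val_mul, inv_mul_cancel, Units.val_one,
      Matrix.one_mul]
    have h7 : ∀ M : Matrix (Fin 2) (Fin 2) F, M.trace = M 0 0 + M 1 1 := fun M => Matrix.trace_fin_two M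
    rw [h7 (B : Matrix (Fin 2) (Fin 2) F), map_add]
    exact h7 _
  have h6 := Cfsg.Agent.ClassicalGeometry.PSL2Basic.sl2_mul_self B
  have hneg1 : (-1 : Matrix (Fin 2) (Fin 2) F) = 1 := by
    have : (-1 : F) = 1 := by linear_combination -h2
    ext i j
    fin_cases i <;> fin_cases j <;> simp [this]
  rcases hfix _ h5.symm with h7 | h7
  · left
    rw [← map_pow, pr_eq_one_iff]
    left
    apply Subtype.ext
    rw [pow_two, Matrix.SpecialLinearGroup.coe_mul, h6, h7, zero_smul, zero_sub, hneg1]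
    rfl
  · right
    rw [← map_pow, pr_eq_one_iff]
    left
    apply Subtype.ext
    rw [h7, one_smul] at h6
    rw [pow_succ, pow_two, Matrix.SpecialLinearGroup.coe_mul, Matrix.SpecialLinearGroup.coe_mul, h6,
      Matrix.sub_mul, Matrix.one_mul, h6]
    have : (B : Matrix (Fin 2) (Fin 2) F) - 1 - (B : Matrix (Fin 2) (Fin 2) F) = -1 := by abel
    rw [this, hneg1]
    rfl

/-- the degrees of the characters of `PSL_2(8)` -/
theorem deg_eight (h8 : Fintype.card F = 8) (χ : IrrCharacter (Matrix.ProjectiveSpecialLinearGroup (Fin 2) F)) :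
    (charDegree (χ : Matrix.ProjectiveSpecialLinearGroup (Fin 2) F → ℂ) = 7 ∨
      charDegree (χ : Matrix.ProjectiveSpecialLinearGroup (Fin 2) F → ℂ) = 9) ∨
    ∀ φ : MulAut (Matrix.ProjectiveSpecialLinearGroup (Fin 2) F), ∀ x,
      (χ : Matrix.ProjectiveSpecialLinearGroup (Fin 2) F → ℂ) (φ x) =
        (χ : Matrix.ProjectiveSpecialLinearGroup (Fin 2) F → ℂ) x := by
  classical
  have : Fact (Nat.Prime 2) := ⟨Nat.prime_two⟩
  have hch : CharP F 2 := charP_of_card_eq_prime_pow (p := 2) (f := 3) (by rw [h8]; norm_num)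
  obtain ⟨hdeg, hcnt⟩ := Cfsg.Agent.S2300.result (F := F)
  obtain ⟨hone, hq, -, -⟩ := hcnt (by rw [h8]; norm_num)
  have hinf : ∀ ψ : IrrCharacter (Matrix.ProjectiveSpecialLinearGroup (Fin 2) F),
      IsIrrCharacter (SL(2, F)) ((ψ : Matrix.ProjectiveSpecialLinearGroup (Fin 2) F → ℂ) ∘ pr F) :=
    fun ψ => isIrr_comp (pr F) (pr_surjective F) ψ.2
  -- uniqueness
  have key : ∀ d : ℂ, Nat.card {χ : IrrCharacter (SL(2, F)) // (χ : SL(2, F) → ℂ) 1 = d} = 1 →
      (χ : Matrix.ProjectiveSpecialLinearGroup (Fin 2) F → ℂ) 1 = d →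
      ∀ φ : MulAut (Matrix.ProjectiveSpecialLinearGroup (Fin 2) F), ∀ x,
      (χ : Matrix.ProjectiveSpecialLinearGroup (Fin 2) F → ℂ) (φ x) =
        (χ : Matrix.ProjectiveSpecialLinearGroup (Fin 2) F → ℂ) x := by
    intro d hd hχ φ x
    have hss := (Nat.card_eq_one_iff_unique.1 hd).1
    have hψ : IsIrrCharacter (Matrix.ProjectiveSpecialLinearGroup (Fin 2) F)
        (fun z => (χ : Matrix.ProjectiveSpecialLinearGroup (Fin 2) F → ℂ) (φ z)) :=
      isIrr_comp φ.toMonoidHom φ.surjective χ.2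
    let ψ : IrrCharacter (Matrix.ProjectiveSpecialLinearGroup (Fin 2) F) := ⟨_, hψ⟩
    have e1 : (⟨⟨_, hinf χ⟩, by show (χ : _ → ℂ) (pr F 1) = d; rw [map_one, hχ]⟩ :
      {χ : IrrCharacter (SL(2, F)) // (χ : SL(2, F) → ℂ) 1 = d}) =
      ⟨⟨_, hinf ψ⟩, by show (χ : _ → ℂ) (φ (pr F 1)) = d; rw [map_one, map_one, hχ]⟩ := hss.elim _ _
    have e2 := congrArg (fun z : {χ : IrrCharacter (SL(2, F)) // (χ : SL(2, F) → ℂ) 1 = d} =>
      (z.1 : SL(2, F) → ℂ)) e1
    obtain ⟨B, rfl⟩ := pr_surjective F x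
    exact (congrFun e2 B).symm
  have h1 := hdeg _ (hinf χ)
  have h2 : ((χ : Matrix.ProjectiveSpecialLinearGroup (Fin 2) F → ℂ) ∘ pr F) 1 =
      (χ : Matrix.ProjectiveSpecialLinearGroup (Fin 2) F → ℂ) 1 := by
    rw [Function.comp_apply, map_one]
  rw [h2, h8] at h1
  rcases h1 with h1 | h1 | h1 | h1
  · exact Or.inr (key _ hone h1)
  · left; left
    refine Cfsg.Agent.Blocks.Basic.charDegree_of_eq ?_
    rw [h1]; norm_num
  · refine Or.inr (key _ hq ?_)
    rw [h1, h8]
  · left; right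
    refine Cfsg.Agent.Blocks.Basic.charDegree_of_eq ?_
    rw [h1]; norm_num

theorem row2_eight (h8 : Fintype.card F = 8) : Row2 (Matrix.ProjectiveSpecialLinearGroup (Fin 2) F) := by
  classical
  have : Fact (Nat.Prime 2) := ⟨Nat.prime_two⟩
  have hch : CharP F 2 := charP_of_card_eq_prime_pow (p := 2) (f := 3) (by rw [h8]; norm_num)
  have h2 : (2 : F) = 0 := by exact_mod_cast CharP.cast_eq_zero F 2
  have hG : Nat.card (Matrix.ProjectiveSpecialLinearGroup (Fin 2) F) = 504 := by
    rw [Cfsg.Agent.ClassicalGeometry.PSL2Basic.card_PSL2_even (F := F) (by rw [h8]; decide), h8]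
    norm_num
  have hA : Nat.card (MulAut (Matrix.ProjectiveSpecialLinearGroup (Fin 2) F)) =
      3 * Nat.card (Matrix.ProjectiveSpecialLinearGroup (Fin 2) F) := by
    rw [Cfsg.Agent.ClassicalGeometry.AutPSL.Main.card_two 2, Cfsg.Agent.H183.OutPSL.card_pgl_eq le_rfl,
      Cfsg.Agent.Lib.FieldAutCard.card_ringAut (p := 2) (f := 3) (by norm_num) (by rw [h8]; norm_num), h8]
    norm_num
    ring
  obtain ⟨x, hx⟩ := ord_nonsplit F
  obtain ⟨y, hy⟩ := ord_split_even h2
  rw [h8] at hx hy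
  norm_num at hx hy
  rintro G _ _ N _ ⟨e⟩ hcen - hN
  left
  have hidx : N.index = 3 := by
    have h3 := index_dvd N e hcen hA
    rcases (Nat.dvd_prime Nat.prime_three).1 h3 with h4 | h4
    · exact absurd (Subgroup.index_eq_one.1 h4) hN
    · exact h4
  obtain ⟨g, hg⟩ : ∃ g, g ∉ N := by
    by_contra h
    push Not at h
    exact hN ((Subgroup.eq_top_iff' N).2 h)
  have hni := not_inner (e := e) hcen hg
  -- the two characters
  have hc9 : ∀ θ : IrrCharacter (Matrix.ProjectiveSpecialLinearGroup (Fin 2) F),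
      charDegree (θ : Matrix.ProjectiveSpecialLinearGroup (Fin 2) F → ℂ) = 9 → ∀ φ : MulAut _,
      (θ : Matrix.ProjectiveSpecialLinearGroup (Fin 2) F → ℂ) (φ x) = 0 := by
    intro θ hθ φ
    refine zero_of_degree (D := 9) (M := 56) (by rw [hG]) (by norm_num) hθ ?_
    rw [MulEquiv.orderOf_eq, hx]
    norm_num
  have hc7 : ∀ θ : IrrCharacter (Matrix.ProjectiveSpecialLinearGroup (Fin 2) F),
      charDegree (θ : Matrix.ProjectiveSpecialLinearGroup (Fin 2) F → ℂ) = 7 → ∀ φ : MulAut _,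
      (θ : Matrix.ProjectiveSpecialLinearGroup (Fin 2) F → ℂ) (φ y) = 0 := by
    intro θ hθ φ
    refine zero_of_degree (D := 7) (M := 72) (by rw [hG]) (by norm_num) hθ ?_
    rw [MulEquiv.orderOf_eq, hy]
    norm_num
  have hncx : ¬ IsConj x (autS N e g x) := by
    intro h
    rcases eight_noninner h8 _ hni x h with h3 | h3
    · have := orderOf_dvd_of_pow_eq_one h3
      rw [hx] at this
      norm_num at this
    · have := orderOf_dvd_of_pow_eq_one h3
      rw [hx] at this
      norm_num at this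
  have hncy : ¬ IsConj y (autS N e g y) := by
    intro h
    rcases eight_noninner h8 _ hni y h with h3 | h3
    · have := orderOf_dvd_of_pow_eq_one h3
      rw [hy] at this
      norm_num at this
    · have := orderOf_dvd_of_pow_eq_one h3
      rw [hy] at this
      norm_num at this
  obtain ⟨θ₇, h7⟩ := exists_sep hncx
  obtain ⟨θ₉, h9⟩ := exists_sep hncy
  have hd7 : charDegree (θ₇ : Matrix.ProjectiveSpecialLinearGroup (Fin 2) F → ℂ) = 7 := by
    rcases deg_eight h8 θ₇ with (h3 | h3) | h3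
    · exact h3
    · exfalso
      apply h7
      have h4 := hc9 θ₇ h3 1
      rw [MulAut.one_apply] at h4
      rw [h4, hc9 θ₇ h3]
    · exact absurd (h3 _ _).symm h7
  have hd9 : charDegree (θ₉ : Matrix.ProjectiveSpecialLinearGroup (Fin 2) F → ℂ) = 9 := by
    rcases deg_eight h8 θ₉ with (h3 | h3) | h3
    · exfalso
      apply h9
      have h4 := hc7 θ₉ h3 1
      rw [MulAut.one_apply] at h4
      rw [h4, hc7 θ₉ h3]
    · exact h3
    · exact absurd (h3 _ _).symm h9
  have hinv7 : (θ₇ : Matrix.ProjectiveSpecialLinearGroup (Fin 2) F → ℂ) ∘ (autS N e g) ≠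
      (θ₇ : Matrix.ProjectiveSpecialLinearGroup (Fin 2) F → ℂ) := fun h => h7 (congrFun h x).symm
  have hinv9 : (θ₉ : Matrix.ProjectiveSpecialLinearGroup (Fin 2) F → ℂ) ∘ (autS N e g) ≠
      (θ₉ : Matrix.ProjectiveSpecialLinearGroup (Fin 2) F → ℂ) := fun h => h9 (congrFun h y).symm
  obtain ⟨χ₇, ho7⟩ := exists_over N e θ₇
  obtain ⟨χ₉, ho9⟩ := exists_over N e θ₉
  obtain ⟨s, hs, hsc, hsz⟩ := nonConj_three hidx hg (e.symm y).2
  obtain ⟨t, ht, htc, htz⟩ := nonConj_three hidx hg (e.symm x).2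
  refine two_of_zeros (χ := χ₇) (ψ := χ₉) ?_ s t hs ht ?_ ?_ hsc.ge htc.ge
  · rintro rfl
    obtain ⟨k, hk⟩ := ho7.conj ho9
    have h10 : charDegree (θ₉ : Matrix.ProjectiveSpecialLinearGroup (Fin 2) F → ℂ) = 7 := by
      rw [hk, charDegree_comp, hd7]
    omega
  · intro z hz
    rcases hsz z hz with rfl | h10
    · exact ho7.zero (hc7 θ₇ hd7)
    · exact Over.vanish Nat.prime_three hidx ho7 hinv7 h10
  · intro z hz
    rcases htz z hz with rfl | h10
    · exact ho9.zero (hc9 θ₉ hd9)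
    · exact Over.vanish Nat.prime_three hidx ho9 hinv9 h10

theorem row1_eight (h8 : Fintype.card F = 8) : Two (Matrix.ProjectiveSpecialLinearGroup (Fin 2) F) := by
  have he : Even (Fintype.card F) := by rw [h8]; decide
  have hg : Nat.gcd 2 (Fintype.card F - 1) = 1 := by rw [h8]; norm_num
  obtain ⟨C, hC, hcard⟩ := cc_nonsplit (F := F) (by rw [hg, Nat.div_one]; omega)
    (by rw [hg, Nat.div_one]; exact he.add_one)
  rw [hg, Nat.div_one, h8] at hcard
  have hG : Nat.card (Matrix.ProjectiveSpecialLinearGroup (Fin 2) F) = 504 := by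
    rw [Cfsg.Agent.ClassicalGeometry.PSL2Basic.card_PSL2_even (F := F) he, h8]
    norm_num
  have hk := Cfsg.Agent.H525.PslK.psl2_even he
  rw [h8] at hk
  have hidx : C.index = 56 := by
    have := C.card_mul_index
    rw [hcard, hG] at this
    omega
  have hei : eIdx C = 2 := by
    have h2 : Nat.card (Matrix.ProjectiveSpecialLinearGroup (Fin 2) F) = Nat.card C * C.index :=
      (C.card_mul_index).symm
    have h3 := eIdx_eq_mod hC (by omega) h2
    rw [h3, hcard, hidx]
  exact two_of_ti hC hei (m := 4) (by norm_num) (by rw [hcard]) hk.ge (by norm_num)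

end Cfsg.Agent.H797.TwoPsl
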