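import Cfsg.Agent.H797.TwoPsl.Odd

/-!
# The row of `PSL_2(q)` for S4897, `q = 11` and `q = 27`
-/

set_option autoImplicit false
set_option linter.unusedSectionVars false

namespace Cfsg.Agent.H797.TwoPsl

open scoped MatrixGroups
open Cfsg Cfsg.Agent.Characters.Core Cfsg.Agent.ClassicalGeometry.PSLTorus Cfsg.Agent.H504.Zeros
open Cfsg.Agent.H681.ZerosPSL2 Cfsg.Agent.H504.TwoZ
open Cfsg.Agent.ClassicalGeometry.AutPSL.Auto (cj fld lift coe_cj coe_fld_apply lift_pr)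

theorem root_ne {ζ : ℂˣ} {N : ℕ} (hζ : orderOf ζ = N) {i j : ℕ}
    (h : ((ζ ^ i : ℂˣ) : ℂ) + ((ζ ^ i)⁻¹ : ℂˣ) = ((ζ ^ j : ℂˣ) : ℂ) + ((ζ ^ j)⁻¹ : ℂˣ)) :
    i ≡ j [MOD N] ∨ N ∣ i + j := by
  have hx : ((ζ ^ i : ℂˣ) : ℂ) * (((ζ ^ i)⁻¹ : ℂˣ) : ℂ) = 1 := by simp
  have hy : ((ζ ^ j : ℂˣ) : ℂ) * (((ζ ^ j)⁻¹ : ℂˣ) : ℂ) = 1 := by simp
  have hprod : (((ζ ^ i : ℂˣ) : ℂ) - ((ζ ^ j : ℂˣ) : ℂ)) *
      (((ζ ^ i : ℂˣ) : ℂ) * ((ζ ^ j : ℂˣ) : ℂ) - 1) = 0 := by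
    linear_combination ((ζ ^ i : ℂˣ) : ℂ) * ((ζ ^ j : ℂˣ) : ℂ) * h - ((ζ ^ j : ℂˣ) : ℂ) * hx
      + ((ζ ^ i : ℂˣ) : ℂ) * hy
  rcases mul_eq_zero.1 hprod with h1 | h1
  · left
    have h2 : ζ ^ i = ζ ^ j := Units.ext (sub_eq_zero.1 h1)
    rw [pow_eq_pow_iff_modEq, hζ] at h2
    exact h2
  · right
    have h2 : ζ ^ (i + j) = 1 := by
      apply Units.ext
      rw [pow_add, Units.val_mul, Units.val_one]
      exact sub_eq_zero.1 h1
    have h3 := orderOf_dvd_of_pow_eq_one h2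
    rwa [hζ] at h3

variable {F : Type} [Field F] [Fintype F]

theorem ringEquiv_pow (p : ℕ) [hp : Fact p.Prime] [CharP F p] (σ : F ≃+* F) :
    ∃ i : ℕ, ∀ x : F, σ x = x ^ (p ^ i) := by
  let _ : Algebra (ZMod p) F := ZMod.algebra F p
  let g : F ≃ₐ[ZMod p] F := AlgEquiv.ofRingEquiv (f := σ) (fun a => by
    have : (σ : F →+* F).comp (algebraMap (ZMod p) F) = algebraMap (ZMod p) F := Subsingleton.elim _ _
    exact RingHom.congr_fun this a)
  obtain ⟨n, hn⟩ := (FiniteField.bijective_frobeniusAlgEquivOfAlgebraic_pow (ZMod p) F).2 g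
  refine ⟨n.1, fun x => ?_⟩
  have h1 : ∀ (m : ℕ) (x : F), ((FiniteField.frobeniusAlgEquivOfAlgebraic (ZMod p) F) ^ m) x = x ^ (p ^ m) := by
    intro m
    induction m with
    | zero => intro x; simp
    | succ m ih =>
      intro x
      rw [pow_succ, AlgEquiv.mul_apply, ih]
      show (x ^ (Fintype.card (ZMod p))) ^ p ^ m = _
      rw [ZMod.card, ← pow_mul, pow_succ, mul_comm]
  have h2 : g x = σ x := rfl
  rw [← h2, ← hn]
  exact h1 n.1 x

/-- conjugation by `GL_2` on diagonal elements is inner -/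
theorem cj_diag (A : GL (Fin 2) F) (b : Fˣ) : ∃ B : SL(2, F),
    cj A (Cfsg.Agent.Walter.MetaPSL.diagHom F b) =
      B * Cfsg.Agent.Walter.MetaPSL.diagHom F b * B⁻¹ := by
  set δ : Fˣ := Matrix.GeneralLinearGroup.det A with hδ
  have hdet : ((A : Matrix (Fin 2) (Fin 2) F) * !![((δ⁻¹ : Fˣ) : F), 0; 0, 1]).det = 1 := by
    rw [Matrix.det_mul, Matrix.det_fin_two_of]
    have h1 : (A : Matrix (Fin 2) (Fin 2) F).det = δ := rfl
    rw [h1]
    simp
  obtain ⟨B, hB⟩ : ∃ B : SL(2, F), (B : Matrix (Fin 2) (Fin 2) F) =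
      (A : Matrix (Fin 2) (Fin 2) F) * !![((δ⁻¹ : Fˣ) : F), 0; 0, 1] := ⟨⟨_, hdet⟩, rfl⟩
  refine ⟨B, ?_⟩
  rw [eq_mul_inv_iff_mul_eq]
  apply Subtype.ext
  rw [Matrix.SpecialLinearGroup.coe_mul, Matrix.SpecialLinearGroup.coe_mul, coe_cj, hB]
  have hD : ((Cfsg.Agent.Walter.MetaPSL.diagHom F b : SL(2, F)) : Matrix (Fin 2) (Fin 2) F) =
      !![(b : F), 0; 0, ((b⁻¹ : Fˣ) : F)] := rfl
  have h2 : ((A⁻¹ : GL (Fin 2) F) : Matrix (Fin 2) (Fin 2) F) * (A : Matrix (Fin 2) (Fin 2) F) = 1 := by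
    rw [← Units.val_mul, inv_mul_cancel, Units.val_one]
  have h3 : (!![(b : F), 0; 0, ((b⁻¹ : Fˣ) : F)] : Matrix (Fin 2) (Fin 2) F) *
      !![((δ⁻¹ : Fˣ) : F), 0; 0, 1] = !![((δ⁻¹ : Fˣ) : F), 0; 0, 1] * !![(b : F), 0; 0, ((b⁻¹ : Fˣ) : F)] := by
    rw [Matrix.mul_fin_two, Matrix.mul_fin_two]
    simp [mul_comm]
  calc ((A : Matrix (Fin 2) (Fin 2) F) * (Cfsg.Agent.Walter.MetaPSL.diagHom F b : SL(2, F)) *
        ((A⁻¹ : GL (Fin 2) F) : Matrix (Fin 2) (Fin 2) F)) *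
        ((A : Matrix (Fin 2) (Fin 2) F) * !![((δ⁻¹ : Fˣ) : F), 0; 0, 1])
      = (A : Matrix (Fin 2) (Fin 2) F) * (!![(b : F), 0; 0, ((b⁻¹ : Fˣ) : F)] *
        ((((A⁻¹ : GL (Fin 2) F) : Matrix (Fin 2) (Fin 2) F) * (A : Matrix (Fin 2) (Fin 2) F)) *
          !![((δ⁻¹ : Fˣ) : F), 0; 0, 1])) := by rw [hD]; simp only [Matrix.mul_assoc]
    _ = ((A : Matrix (Fin 2) (Fin 2) F) * !![((δ⁻¹ : Fˣ) : F), 0; 0, 1]) *
        !![(b : F), 0; 0, ((b⁻¹ : Fˣ) : F)] := by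
        rw [h2, Matrix.one_mul, h3, Matrix.mul_assoc]

theorem fld_diag (σ : F ≃+* F) (b : Fˣ) : fld σ (Cfsg.Agent.Walter.MetaPSL.diagHom F b) =
    Cfsg.Agent.Walter.MetaPSL.diagHom F (Units.map (σ : F →* F) b) := by
  apply Subtype.ext
  ext i j
  rw [coe_fld_apply]
  fin_cases i <;> fin_cases j
  · exact rfl
  · exact map_zero σ
  · exact map_zero σ
  · show σ ((b⁻¹ : Fˣ) : F) = (((Units.map (σ : F →* F) b)⁻¹ : Fˣ) : F)
    rw [← map_inv]
    rfl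

/-- the value at an automorphic image of a diagonal element -/
theorem apply_aut {p : ℕ} [Fact p.Prime] [CharP F p]
    (χ : IrrCharacter (Matrix.ProjectiveSpecialLinearGroup (Fin 2) F))
    (φ : MulAut (Matrix.ProjectiveSpecialLinearGroup (Fin 2) F)) (b : Fˣ) :
    ∃ i : ℕ, (χ : Matrix.ProjectiveSpecialLinearGroup (Fin 2) F → ℂ) (φ (dH F b)) =
      (χ : Matrix.ProjectiveSpecialLinearGroup (Fin 2) F → ℂ) (dH F (b ^ (p ^ i))) := by
  obtain ⟨A, σ, rfl⟩ := Cfsg.Agent.ClassicalGeometry.AutPSL.Main.surj_two p φ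
  obtain ⟨i, hi⟩ := ringEquiv_pow p σ
  refine ⟨i, ?_⟩
  have h1 : Units.map (σ : F →* F) b = b ^ (p ^ i) := by
    apply Units.ext
    rw [Units.val_pow_eq_pow_val]
    exact hi _
  obtain ⟨B, hB⟩ := cj_diag A (b ^ (p ^ i))
  have h2 : lift (cj A * fld σ) (dH F b) = pr F (cj A (fld σ (Cfsg.Agent.Walter.MetaPSL.diagHom F b))) := rfl
  rw [h2, fld_diag, h1, hB, map_mul, map_mul, map_inv]
  exact isIrr_isClassFunction χ.2 _ _

/-- `q ≡ 3 mod 4` with small outer automorphism group -/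
theorem row2_excep {p : ℕ} [Fact p.Prime] [CharP F p] (h : Fintype.card F % 4 = 3) (h11 : 11 ≤ Fintype.card F)
    (hp : ∀ i : ℕ, (p ^ i + 2) % ((Fintype.card F - 1) / 2) ≠ 0 ∧
      p ^ i % ((Fintype.card F - 1) / 2) ≠ 2) :
    Row2 (Matrix.ProjectiveSpecialLinearGroup (Fin 2) F) := by
  classical
  obtain ⟨m, hm, hS, hc, ho, h3⟩ := data_three h h11
  have hodd : Odd (Fintype.card F) := Nat.odd_iff.2 (by omega)
  obtain ⟨g, hg⟩ := IsCyclic.exists_generator (α := Fˣ)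
  obtain ⟨ζ, hζ⟩ := exists_root (2 * m + 1) (by omega)
  have hgo : orderOf g = 4 * m + 2 := by
    rw [orderOf_eq_card_of_forall_mem_zpowers hg, Nat.card_eq_fintype_card, Fintype.card_units, hm]
    omega
  have hN : (Fintype.card F - 1) / 2 = 2 * m + 1 := by omega
  rw [hN] at hp
  have key : ∀ j : ℕ, 1 ≤ j → j ≤ 2 → ∃ χ : IrrCharacter (Matrix.ProjectiveSpecialLinearGroup (Fin 2) F),
      charDegree (χ : Matrix.ProjectiveSpecialLinearGroup (Fin 2) F → ℂ) = Fintype.card F + 1 ∧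
      ∀ k : ℕ, g ^ (k * 2) ≠ 1 → (χ : Matrix.ProjectiveSpecialLinearGroup (Fin 2) F → ℂ) (dH F (g ^ k)) =
        ((ζ ^ (j * k) : ℂˣ) : ℂ) + ((ζ ^ (j * k))⁻¹ : ℂˣ) := by
    intro j hj1 hj2
    obtain ⟨α, h1, h2⟩ := exists_alpha hm hg hζ j
    obtain ⟨h3, h4⟩ := h2 1
    rw [pow_one, mul_one] at h3 h4
    obtain ⟨χ, h5, h6⟩ := principal hodd α h1 (by
      intro h
      have h7 : (α ^ 2) (g : F) = 1 := by rw [h]; simp
      rw [MulChar.pow_apply' _ (by norm_num), h3] at h7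
      have h8 : (ζ ^ j) ^ 2 = 1 := Units.ext (by push_cast; exact_mod_cast h7)
      rw [← pow_mul] at h8
      have h9 := orderOf_dvd_of_pow_eq_one h8
      rw [hζ] at h9
      have h10 := Nat.le_of_dvd (by omega) h9
      have h11' : 4 < 2 * m + 1 ∨ m ≤ 1 := by omega
      omega)
    refine ⟨χ, h5, fun k hk => ?_⟩
    rw [h6 (g ^ k) (by rwa [← pow_mul]), (h2 k).1, (h2 k).2]
  obtain ⟨θ₁, hd1, hv1⟩ := key 1 le_rfl (by norm_num)
  obtain ⟨θ₂, hd2, hv2⟩ := key 2 (by norm_num) le_rfl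
  have hne : ∀ φ : MulAut (Matrix.ProjectiveSpecialLinearGroup (Fin 2) F),
      (θ₂ : Matrix.ProjectiveSpecialLinearGroup (Fin 2) F → ℂ) ≠
        (θ₁ : Matrix.ProjectiveSpecialLinearGroup (Fin 2) F → ℂ) ∘ φ := by
    intro φ hφ
    have h1 := congrFun hφ (dH F g)
    obtain ⟨i, hi⟩ := apply_aut (p := p) θ₁ φ g
    rw [Function.comp_apply, hi] at h1
    have h2 := hv2 1 (by
      rw [one_mul]
      intro h
      have h7 := orderOf_dvd_of_pow_eq_one h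
      rw [hgo] at h7
      have h8 := Nat.le_of_dvd (by norm_num) h7
      omega)
    rw [pow_one, mul_one] at h2
    rw [h2] at h1
    have h4 : g ^ (p ^ i * 2) ≠ 1 := by
      intro h
      have h5 := orderOf_dvd_of_pow_eq_one h
      rw [hgo, show 4 * m + 2 = (2 * m + 1) * 2 by ring] at h5
      have h6 := Nat.dvd_of_mul_dvd_mul_right (by norm_num) h5
      have hpp : p.Prime := Fact.out
      have hdvd : (2 * m + 1) ∣ Fintype.card F - 1 := ⟨2, by omega⟩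
      obtain ⟨n, -, hn⟩ := FiniteField.card F p
      have hcop : Nat.Coprime (2 * m + 1) (p ^ i) := by
        apply Nat.Coprime.pow_right
        have h9 : Nat.Coprime (Fintype.card F - 1) (Fintype.card F) := by
          obtain ⟨r, hr⟩ : ∃ r, Fintype.card F = r + 1 := ⟨Fintype.card F - 1, by omega⟩
          rw [hr, Nat.add_sub_cancel, Nat.coprime_self_add_right]
          exact Nat.coprime_one_right _
        rw [hn] at h9
        have h10 : Nat.Coprime (p ^ (n : ℕ) - 1) p :=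
          Nat.Coprime.coprime_dvd_right (dvd_pow_self p n.2.ne') h9
        rw [← hn] at h10
        exact Nat.Coprime.coprime_dvd_left hdvd h10
      have h8 := Nat.Coprime.eq_one_of_dvd hcop h6
      omega
    rw [hv1 _ h4, one_mul] at h1
    rcases root_ne hζ h1 with h5 | h5
    · have h6 : 2 % (2 * m + 1) = p ^ i % (2 * m + 1) := h5
      rw [Nat.mod_eq_of_lt (by omega)] at h6
      exact (hp i).2 h6.symm
    · apply (hp i).1
      rw [add_comm]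
      exact Nat.mod_eq_zero_of_dvd h5
  rintro G _ _ N _ ⟨e⟩ - - -
  obtain ⟨t, ht, htc, hto⟩ := autNC_of_orders
    (S := Matrix.ProjectiveSpecialLinearGroup (Fin 2) F) _ fun n hn => (ho n hn).2
  refine Or.inl (two_of_over N e hne t t ht ht ?_ ?_ (h3.trans htc.ge) (h3.trans htc.ge))
  · intro x hx φ
    refine zero_of_degree hS hc hd1 ?_
    rw [MulEquiv.orderOf_eq]
    exact (ho _ (hto x hx)).1
  · intro x hx φ
    refine zero_of_degree hS hc hd2 ?_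
    rw [MulEquiv.orderOf_eq]
    exact (ho _ (hto x hx)).1

theorem row2_eleven (h : Fintype.card F = 11) : Row2 (Matrix.ProjectiveSpecialLinearGroup (Fin 2) F) := by
  have : Fact (Nat.Prime 11) := ⟨by norm_num⟩
  have : CharP F 11 := charP_of_card_eq_prime_pow (p := 11) (f := 1) (by rw [h]; norm_num)
  refine row2_excep (p := 11) (by rw [h]) (by rw [h]) fun i => ?_
  rw [h]
  norm_num
  have h1 : 11 ^ i % 5 = 1 := by
    rw [Nat.pow_mod]
    norm_num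
  omega

theorem row2_27 (h : Fintype.card F = 27) : Row2 (Matrix.ProjectiveSpecialLinearGroup (Fin 2) F) := by
  have : Fact (Nat.Prime 3) := ⟨by norm_num⟩
  have : CharP F 3 := charP_of_card_eq_prime_pow (p := 3) (f := 3) (by rw [h]; norm_num)
  refine row2_excep (p := 3) (by rw [h]) (by rw [h]; norm_num) fun i => ?_
  rw [h]
  norm_num
  have h1 : 3 ^ i % 13 = 1 ∨ 3 ^ i % 13 = 3 ∨ 3 ^ i % 13 = 9 := by
    induction i with
    | zero => left; norm_num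
    | succ n ih => rw [pow_succ]; omega
  omega

end Cfsg.Agent.H797.TwoPsl
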