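import Cfsg.Agent.H797.TwoPsl.Chars
import Cfsg.Agent.H504.TwoRows

/-!
# The row of `PSL_2(q)` for S4897, generic `q`
-/

set_option autoImplicit false
set_option linter.unusedSectionVars false

namespace Cfsg.Agent.H797.TwoPsl

open scoped MatrixGroups
open Cfsg Cfsg.Agent.Characters.Core Cfsg.Agent.ClassicalGeometry.PSLTorus Cfsg.Agent.H504.Zeros
open Cfsg.Agent.H681.ZerosPSL2 Cfsg.Agent.H504.TwoZ

section Ord

universe u

variable {S : Type u} [Group S]

theorem three_orders [Finite S] {x : S} {a b D : ℕ} (ha : 2 ≤ a) (hb : 2 ≤ b) (hab : a ≠ b)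
    (hx : orderOf x = a * b) (hD : a * b ∣ D) :
    (∀ n ∈ ({a, b, a * b} : Finset ℕ), ¬ Nat.Coprime n D ∧ ∃ g : S, orderOf g = n) ∧
      3 ≤ ({a, b, a * b} : Finset ℕ).card := by
  have hnc : ∀ n : ℕ, 2 ≤ n → n ∣ D → ¬ Nat.Coprime n D := by
    intro n hn hnD hc
    have := Nat.Coprime.eq_one_of_dvd hc hnD
    omega
  have hxa : orderOf (x ^ a) = b := by
    rw [orderOf_pow, hx, Nat.gcd_eq_right (dvd_mul_right a b), Nat.mul_div_cancel_left _ (by omega)]
  have hxb : orderOf (x ^ b) = a := by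
    rw [orderOf_pow, hx, Nat.gcd_eq_right (dvd_mul_left b a), Nat.mul_div_cancel _ (by omega)]
  constructor
  · intro n hn
    rw [Finset.mem_insert, Finset.mem_insert, Finset.mem_singleton] at hn
    rcases hn with rfl | rfl | rfl
    · exact ⟨hnc _ ha ((dvd_mul_right _ _).trans hD), _, hxb⟩
    · exact ⟨hnc _ hb ((dvd_mul_left _ _).trans hD), _, hxa⟩
    · exact ⟨hnc _ (by nlinarith) hD, _, hx⟩
  · rw [Finset.card_insert_of_notMem, Finset.card_insert_of_notMem, Finset.card_singleton]
    · rw [Finset.mem_singleton]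
      intro h
      have : 2 * b ≤ a * b := Nat.mul_le_mul_right _ ha
      omega
    · rw [Finset.mem_insert, Finset.mem_singleton]
      rintro (h | h)
      · exact hab h
      · have : a * 2 ≤ a * b := Nat.mul_le_mul_left _ hb
        omega

end Ord

variable {F : Type} [Field F] [Fintype F]

theorem ord_nonsplit (F : Type) [Field F] [Fintype F] :
    ∃ x : Matrix.ProjectiveSpecialLinearGroup (Fin 2) F,
      orderOf x = (Fintype.card F + 1) / Nat.gcd 2 (Fintype.card F - 1) := by
  obtain ⟨a, s, ha, -, -, hneg, -, -⟩ :=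
    Cfsg.Agent.ClassicalGeometry.NonsplitTorus.exists_torus_TI F
  exact ⟨_, orderOf_pr a ha hneg⟩

theorem orderOf_dH_odd (hodd : Odd (Fintype.card F)) {g : Fˣ} (hg : ∀ x, x ∈ Subgroup.zpowers g) :
    2 * orderOf (dH F g) = Fintype.card F - 1 := by
  rw [← card_range_dH ((two_ne_zero_iff_odd F).2 hodd), ← Nat.card_zpowers]
  congr 2
  have : Subgroup.zpowers (dH F g) = (dH F).range := by
    rw [← MonoidHom.map_zpowers]
    have h1 : Subgroup.zpowers g = ⊤ := (Subgroup.eq_top_iff' _).2 hg
    rw [h1, MonoidHom.range_eq_map]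
  rw [this]

theorem ord_split_even (he : (2 : F) = 0) : ∃ x : Matrix.ProjectiveSpecialLinearGroup (Fin 2) F,
      orderOf x = Fintype.card F - 1 := by
  classical
  obtain ⟨g, hg⟩ := IsCyclic.exists_generator (α := Fˣ)
  refine ⟨dH F g, ?_⟩
  have hinj : Function.Injective (dH F) := by
    rw [injective_iff_map_eq_one]
    intro a ha
    rcases (dH_eq_one_iff a).1 ha with h | h
    · exact h
    · rw [h]
      apply Units.ext
      simp only [Units.val_neg, Units.val_one]
      linear_combination -he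
  rw [orderOf_injective _ hinj, orderOf_eq_card_of_forall_mem_zpowers hg, Nat.card_eq_fintype_card,
    Fintype.card_units]

theorem exists_pow (F : Type) [Field F] [Fintype F] :
    ∃ p f : ℕ, p.Prime ∧ 1 ≤ f ∧ Fintype.card F = p ^ f := by
  obtain ⟨p, n, hp, hn, h⟩ := (isPrimePow_nat_iff _).1 (FiniteField.isPrimePow_card F)
  exact ⟨p, n, hp, hn, h.symm⟩

theorem three_pow_gt (f : ℕ) (hf : 3 ≤ f) : 8 * f + 1 < 3 ^ f := by
  induction f, hf using Nat.le_induction with
  | base => norm_num
  | succ n hn ih => rw [pow_succ]; omega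

/-- `q ≡ 1 mod 4`: the row -/
theorem row_one (h : Fintype.card F % 4 = 1) (h13 : 13 ≤ Fintype.card F) :
    Two (Matrix.ProjectiveSpecialLinearGroup (Fin 2) F) ∧
      Row2 (Matrix.ProjectiveSpecialLinearGroup (Fin 2) F) := by
  have hodd : Odd (Fintype.card F) := Nat.odd_iff.2 (by omega)
  have hG := Cfsg.Agent.ClassicalGeometry.PSL2Basic.card_PSL2_odd (F := F) hodd
  obtain ⟨m, hm⟩ : ∃ m, Fintype.card F = 4 * m + 1 := ⟨Fintype.card F / 4, by omega⟩
  have hcard := card_deg_sub hm
  obtain ⟨g, hg⟩ := IsCyclic.exists_generator (α := Fˣ)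
  have hord := orderOf_dH_odd hodd hg
  have hord' : orderOf (dH F g) = 2 * m := by omega
  have hS : Nat.card (Matrix.ProjectiveSpecialLinearGroup (Fin 2) F) =
      (Fintype.card F - 1) * ((4 * m + 1) * (2 * m + 1)) := by
    rw [hm] at hG ⊢
    have : (4 * m + 1) ^ 2 - 1 = 4 * m * (4 * m + 2) := by
      rw [Nat.sub_eq_iff_eq_add (Nat.one_le_pow _ _ (by omega))]
      ring
    rw [this] at hG
    rw [Nat.add_sub_cancel]
    have h2 : Nat.card (Matrix.ProjectiveSpecialLinearGroup (Fin 2) F) * 2 =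
        (4 * m * ((4 * m + 1) * (2 * m + 1))) * 2 := by rw [hG]; ring
    exact Nat.eq_of_mul_eq_mul_right (by norm_num) h2
  have hc : Nat.Coprime (Fintype.card F - 1) ((4 * m + 1) * (2 * m + 1)) := by
    rw [hm, Nat.add_sub_cancel]
    refine Nat.Coprime.mul_right ?_ ?_
    · rw [Nat.coprime_self_add_right]
      exact Nat.coprime_one_right _
    · have h1 : Nat.Coprime (2 * m) (2 * m + 1) := by
        rw [Nat.coprime_self_add_right]
        exact Nat.coprime_one_right _
      have h2 : Nat.Coprime 2 (2 * m + 1) := by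
        rw [Nat.coprime_two_left]
        exact ⟨m, rfl⟩
      have h3 := h2.mul_left h1
      rwa [← mul_assoc] at h3
  obtain ⟨ho, h3⟩ := three_orders (D := Fintype.card F - 1) (a := 2) (b := m) le_rfl (by omega)
    (by omega) hord' (by rw [hm]; exact ⟨2, by omega⟩)
  refine ⟨row1_of_degree hS hc _ ho h3 (by omega), ?_⟩
  obtain ⟨p, f, hp, hf, hpf⟩ := exists_pow F
  have : Fact p.Prime := ⟨hp⟩
  have hp3 : 3 ≤ p := by
    have h2 := hp.two_le
    rcases Nat.lt_or_ge 2 p with h3 | h3
    · exact h3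
    · exfalso
      have : p = 2 := by omega
      rw [this] at hpf
      have : Even (Fintype.card F) := by rw [hpf]; exact (even_two).pow_of_ne_zero (by omega)
      rw [Nat.even_iff] at this
      omega
  have hlt : 2 * f < m := by
    rcases Nat.lt_or_ge f 3 with h5 | h5
    · have h6 : f = 1 ∨ f = 2 := by omega
      rcases h6 with rfl | rfl
      · omega
      · have h7 : p ≠ 3 := by
          rintro rfl
          norm_num at hpf
          omega
        have h8 : p ≠ 4 := by
          rintro rfl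
          exact absurd hp (by norm_num)
        have h9 : 5 ≤ p := by omega
        have h10 : 25 ≤ p ^ 2 := by nlinarith
        omega
    · have h6 := three_pow_gt f h5
      have h7 : 3 ^ f ≤ p ^ f := Nat.pow_le_pow_left hp3 f
      omega
  have hg2 : Nat.gcd 2 (Fintype.card F - 1) = 2 := by
    apply Nat.gcd_eq_left
    omega
  have hA := mulAut_le (F := F) hf hpf
  rw [hg2] at hA
  exact row2_of_degree hS hc _ ho h3 hA (by omega)

/-- `q ≡ 3 mod 4`: the data -/
theorem data_three (h : Fintype.card F % 4 = 3) (h11 : 11 ≤ Fintype.card F) :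
    ∃ m, Fintype.card F = 4 * m + 3 ∧
      Nat.card (Matrix.ProjectiveSpecialLinearGroup (Fin 2) F) =
        (Fintype.card F + 1) * ((4 * m + 3) * (2 * m + 1)) ∧
      Nat.Coprime (Fintype.card F + 1) ((4 * m + 3) * (2 * m + 1)) ∧
      (∀ n ∈ ({2, m + 1, 2 * (m + 1)} : Finset ℕ), ¬ Nat.Coprime n (Fintype.card F + 1) ∧
        ∃ g : Matrix.ProjectiveSpecialLinearGroup (Fin 2) F, orderOf g = n) ∧
      3 ≤ ({2, m + 1, 2 * (m + 1)} : Finset ℕ).card := by
  have hodd : Odd (Fintype.card F) := Nat.odd_iff.2 (by omega)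
  have hG := Cfsg.Agent.ClassicalGeometry.PSL2Basic.card_PSL2_odd (F := F) hodd
  obtain ⟨m, hm⟩ : ∃ m, Fintype.card F = 4 * m + 3 := ⟨Fintype.card F / 4, by omega⟩
  obtain ⟨x, hx⟩ := ord_nonsplit F
  have hg2 : Nat.gcd 2 (Fintype.card F - 1) = 2 := by
    apply Nat.gcd_eq_left
    omega
  rw [hg2] at hx
  have hx' : orderOf x = 2 * (m + 1) := by omega
  obtain ⟨ho, h3⟩ := three_orders (D := Fintype.card F + 1) (a := 2) (b := m + 1) le_rfl (by omega)
    (by omega) hx' (by rw [hm]; exact ⟨2, by ring⟩)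
  refine ⟨m, hm, ?_, ?_, ho, h3⟩
  · rw [hm] at hG ⊢
    have : (4 * m + 3) ^ 2 - 1 = (4 * m + 4) * (4 * m + 2) := by
      rw [Nat.sub_eq_iff_eq_add (Nat.one_le_pow _ _ (by omega))]
      ring
    rw [this] at hG
    have h2 : Nat.card (Matrix.ProjectiveSpecialLinearGroup (Fin 2) F) * 2 =
        ((4 * m + 3 + 1) * ((4 * m + 3) * (2 * m + 1))) * 2 := by rw [hG]; ring
    exact Nat.eq_of_mul_eq_mul_right (by norm_num) h2
  · rw [hm]
    refine Nat.Coprime.mul_right ?_ ?_
    · rw [Nat.coprime_self_add_left]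
      exact Nat.coprime_one_left _
    · have h1 : Nat.Coprime 2 (2 * m + 1) := by
        rw [Nat.coprime_two_left]
        exact ⟨m, rfl⟩
      have h2 : Nat.Coprime (2 * m + 2) (2 * m + 1) := by
        rw [show 2 * m + 2 = 2 * m + 1 + 1 by ring, Nat.coprime_self_add_left]
        exact Nat.coprime_one_left _
      have h3 := h1.mul_left h2
      rwa [show 2 * (2 * m + 2) = 4 * m + 3 + 1 by ring] at h3

theorem two_three (h : Fintype.card F % 4 = 3) (h11 : 11 ≤ Fintype.card F) :
    Two (Matrix.ProjectiveSpecialLinearGroup (Fin 2) F) := by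
  obtain ⟨m, hm, hS, hc, ho, h3⟩ := data_three h h11
  have hcard := card_deg_add hm
  exact row1_of_degree hS hc _ ho h3 (by omega)

/-- `q ≡ 3 mod 4`, `q ≠ 11, 27` -/
theorem row2_three (h : Fintype.card F % 4 = 3) (h19 : 12 ≤ Fintype.card F) (h27 : Fintype.card F ≠ 27) :
    Row2 (Matrix.ProjectiveSpecialLinearGroup (Fin 2) F) := by
  obtain ⟨m, hm, hS, hc, ho, h3⟩ := data_three h (by omega)
  have hcard := card_deg_add hm
  obtain ⟨p, f, hp, hf, hpf⟩ := exists_pow F
  have : Fact p.Prime := ⟨hp⟩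
  have hp3 : 3 ≤ p := by
    have h2 := hp.two_le
    rcases Nat.lt_or_ge 2 p with h3 | h3
    · exact h3
    · exfalso
      have : p = 2 := by omega
      rw [this] at hpf
      have : Even (Fintype.card F) := by rw [hpf]; exact (even_two).pow_of_ne_zero (by omega)
      rw [Nat.even_iff] at this
      omega
  have hlt : 2 * f < m := by
    rcases Nat.lt_or_ge f 4 with h5 | h5
    · have h6 : f = 1 ∨ f = 2 ∨ f = 3 := by omega
      rcases h6 with rfl | rfl | rfl
      · omega
      · exfalso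
        have h7 : (p ^ 2) % 4 = 3 := by rw [← hpf]; exact h
        have h8 : p % 4 = 0 ∨ p % 4 = 1 ∨ p % 4 = 2 ∨ p % 4 = 3 := by omega
        rw [Nat.pow_mod] at h7
        rcases h8 with h8 | h8 | h8 | h8 <;> rw [h8] at h7 <;> norm_num at h7
      · have h7 : p ≠ 3 := by
          rintro rfl
          norm_num at hpf
          exact h27 hpf
        have h9 : 4 ≤ p := by omega
        have h10 : 4 ^ 3 ≤ p ^ 3 := Nat.pow_le_pow_left h9 3
        omega
    · have h6 : 8 * f + 8 < 3 ^ f := by
        clear * - h5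
        induction f, h5 using Nat.le_induction with
        | base => norm_num
        | succ n hn ih => rw [pow_succ]; omega
      have h7 : 3 ^ f ≤ p ^ f := Nat.pow_le_pow_left hp3 f
      omega
  have hg2 : Nat.gcd 2 (Fintype.card F - 1) = 2 := by
    apply Nat.gcd_eq_left
    omega
  have hA := mulAut_le (F := F) hf hpf
  rw [hg2] at hA
  exact row2_of_degree hS hc _ ho h3 hA (by omega)

end Cfsg.Agent.H797.TwoPsl
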