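import Cfsg.Agent.H797.TwoPsl.Eight

/-! Row PSL₂ of the zero-covering table (`RowT`). -/

open Cfsg Cfsg.Agent.H504.TwoZ

namespace Cfsg.Agent.H797.TwoPsl

/-- The row of `PSL₂(q)`, `q ≥ 8`, `q ≠ 9`. -/
theorem rowT_psl2 {F : Type} [Field F] [Fintype F] (h8 : 8 ≤ Fintype.card F)
    (h9 : Fintype.card F ≠ 9) :
    Cfsg.Agent.H504.TwoZ.RowT (Matrix.ProjectiveSpecialLinearGroup (Fin 2) F) := by
  rcases Nat.even_or_odd (Fintype.card F) with he | ho
  · by_cases h : Fintype.card F = 8
    · exact ⟨Or.inl (row1_eight h), row2_eight h⟩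
    · have := row_even he (by omega)
      exact ⟨Or.inl this.1, this.2⟩
  · have hm : Fintype.card F % 4 = 1 ∨ Fintype.card F % 4 = 3 := by
      rcases ho with ⟨k, hk⟩; omega
    rcases hm with hm | hm
    · have := row_one hm (by omega)
      exact ⟨Or.inl this.1, this.2⟩
    · refine ⟨Or.inl (two_three hm (by omega)), ?_⟩
      by_cases h11 : Fintype.card F = 11
      · exact row2_eleven h11
      · by_cases h27 : Fintype.card F = 27
        · exact row2_27 h27
        · exact row2_three hm (by omega) h27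

end Cfsg.Agent.H797.TwoPsl
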